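import Cfsg.Agent.Bt.Fus
import Cfsg.Agent.Bt.Salt
import Cfsg.Agent.Bt.Loc.FusM11D
import Cfsg.Agent.Comp.Mat

set_option autoImplicit false
set_option maxRecDepth 1000000

namespace CF.Bt.FusM11

open CF.Comp

theorem h1 : evsOK Mat.iN 24 5 X ws = true := by decide +kernel
theorem h2 : slpOK (lapp X X1) 24 5 W 2 = true := by decide +kernel
theorem h3 : geOK (lapp X X1) 24 c 7920 = true := by decide +kernel
theorem t1 : stdS (lapp X X1) 24 5 c [z] [z] [] [] TF TK T 48 = true := by decide +kernel
theorem z1 : commW (lapp X X1) 24 5 (cgens cz) [z] = true := by decide +kernel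
theorem z2 : geOK (lapp X X1) 24 cz 48 = true := by decide +kernel
theorem z3 : lall (wordIn cs) (cgens cz) = true := by decide +kernel
theorem s1 : lall (wordIn ss) (cgens cS) = true := by decide +kernel
theorem s2 : geOK (lapp X X1) 24 cS (2 ^ 4) = true := by decide +kernel
theorem f1 : fsOK (sameW (lapp X X1) 24 5) (difW (lapp X X1) 24 5) ss z pc st fin = true := by decide +kernel
theorem f2 : snOK (sameW (lapp X X1) 24 5) (difW (lapp X X1) 24 5) 2 cs ss ts tb nn = true := by decide +kernel

theorem main {K : Type*} [Group K] (e : K ≃* Cfsg.Spor.M11) (S : Sylow 2 K) :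
    (Cfsg.groupFusionSystem (S : Subgroup K)).IsSimple 2 ∧
      Subgroup.normalizer ((S : Subgroup K) : Set K) = S := by
  obtain ⟨hE, hg⟩ := Exact.fresh Mat.iExact (by decide) (fun w _ => ev_mem Mat.iMem w) h1 (m := 2) rfl h2 Mat.card_M11 h3
  have hf := slp_mem (evs_mem (ws := ws) (fun w _ => ev_mem Mat.iMem w)) W 2
  replace hE := exact_sub_top hE hf
  replace hg := clo_sub_top hf hg
  have := Exact.finite_top hE
  have hZ := cent_of hE (by decide) (by decide) (std_of_S t1) z1 z2
  obtain ⟨a, b, c⟩ := fs_self (eqv_sameW hE.reps (by decide) hE.faithful) (nev_difW hE.reps (by decide) _) f1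
    (hZ.eq_clo.ge.trans (clo_le_of_wordIn z3)) f2
  have hS := (c.card (by decide) hE.reps (by decide) rfl s1 s2).1
  have hG : _ = 2 ^ 4 * 495 := Mat.card_M11.trans (by norm_num)
  exact ⟨a.simple_all hS hG (by norm_num) e S, norm_sylow b hS hG (by norm_num) e S⟩

end CF.Bt.FusM11
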